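import Cfsg.Agent.H935.ExtTwo

/-!
# Finding an `F`-transvection: the plane over a quadratic extension (helper935)
-/

set_option autoImplicit false

namespace Cfsg.Agent.H935

open Module

section Quad

variable {F E V : Type*} [Field F] [Field E] [Algebra F E] [AddCommGroup V] [Module F V] [Module E V]
  [IsScalarTower F E V] {X : Subgroup (V ≃ₗ[F] V)}

/-- Case `m = 2`, `r = 2`. -/
theorem find_of_quad [Finite F] [FiniteDimensional F E] [Module.Finite E V] (hX : ContainsN F E V X)
    (hm : finrank E V = 2) (hr : finrank F E = 2) {u u' : V} {g : V ≃ₗ[F] V}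
    (D : PairData (E := E) X u u' g) : HasTransvection X := by
  have hFV : FiniteDimensional F V := Module.Finite.trans E V
  by_contra hno
  set L := Ln F E u with hL
  set L' := (Ln F E u').map (g : V →ₗ[F] V) with hL'
  obtain ⟨p, ⟨hpL, hpL'⟩, hp0⟩ := Submodule.exists_mem_ne_zero_of_ne_bot D.inf_ne
  have hdimL : finrank F L = finrank F E := finrank_Ln D.u_ne
  have hdimL' : finrank F L' = finrank F E := by
    rw [hL', LinearEquiv.finrank_map_eq, finrank_Ln D.u'_ne]
  obtain ⟨x, hx, hxL⟩ : ∃ x ∈ L', x ∉ L := by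
    by_contra hcon
    push Not at hcon
    exact D.ne (Submodule.eq_of_le_of_finrank_eq hcon (by rw [hdimL, hdimL']))
  obtain ⟨y, hy, hyL'⟩ : ∃ y ∈ L, y ∉ L' := by
    by_contra hcon
    push Not at hcon
    exact D.ne (Submodule.eq_of_le_of_finrank_eq hcon (by rw [hdimL, hdimL'])).symm
  -- `P = F p`
  have hP : ∀ v ∈ L ⊓ L', ∃ c : F, v = c • p := by
    have h1 : Submodule.span F {p} ≤ L ⊓ L' := by
      rw [Submodule.span_singleton_le_iff_mem]
      exact ⟨hpL, hpL'⟩
    have h2 : finrank F (Submodule.span F {p}) = 1 := finrank_span_singleton hp0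
    have h3 := D.finrank_inf
    change finrank F ↥(L ⊓ L') + 1 = _ at h3
    have h4 : Submodule.span F {p} = L ⊓ L' := Submodule.eq_of_le_of_finrank_eq h1 (by omega)
    intro v hv
    rw [← h4, Submodule.mem_span_singleton] at hv
    obtain ⟨c, hc⟩ := hv
    exact ⟨c, hc.symm⟩
  have hLp : ∀ v ∈ L, ∃ κ : E, v = κ • p := by
    intro v hv
    obtain ⟨s, hs⟩ := mem_Ln.mp hpL
    obtain ⟨t, ht⟩ := mem_Ln.mp hv
    have hs0 : s ≠ 0 := by
      rintro rfl
      rw [zero_smul] at hs
      exact hp0 hs.symm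
    exact ⟨t * s⁻¹, by rw [← hs, smul_smul, inv_mul_cancel_right₀ hs0, ht]⟩
  have hpinj : ∀ a b : E, a • p = b • p → a = b := by
    intro a b h
    by_contra hne
    have : (a - b) • p = 0 := by rw [sub_smul, h, sub_self]
    rcases smul_eq_zero.mp this with h1 | h1
    · exact hne (sub_eq_zero.mp h1)
    · exact hp0 h1
  obtain ⟨ω, hω⟩ := hLp y hy
  have hE : ∀ κ : E, ∃ c c' : F, κ = algebraMap F E c * ω + algebraMap F E c' := by
    intro κ
    obtain ⟨c, hc⟩ := D.right y hy hyL' (κ • p) (smul_mem_Ln _ hpL)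
    obtain ⟨c', hc'⟩ := hP _ ⟨L.sub_mem (smul_mem_Ln _ hpL) (L.smul_mem c hy), hc⟩
    refine ⟨c, c', hpinj _ _ ?_⟩
    rw [add_smul, mul_smul, algebraMap_smul, algebraMap_smul, ← hω, ← hc']
    abel
  have hωF : ∀ c : F, algebraMap F E c ≠ ω := by
    intro c hc
    apply hyL'
    rw [hω, ← hc, algebraMap_smul]
    exact L'.smul_mem _ hpL'
  obtain ⟨ψ, hψu, hψx⟩ := exists_functional (E := E) (u := u) (v := x) hxL
  have hψL : ∀ v ∈ L, ψ v = 0 := by
    intro v hv
    obtain ⟨e, rfl⟩ := mem_Ln.mp hv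
    simp [hψu]
  have hker : ∀ v, ψ v = 0 → v ∈ L := by
    intro v hv
    have h1 : finrank E (LinearMap.range ψ) + finrank E (LinearMap.ker ψ) = 2 := by
      rw [LinearMap.finrank_range_add_finrank_ker, hm]
    have h2 : LinearMap.range ψ = ⊤ := by
      rw [LinearMap.range_eq_top]
      intro e
      exact ⟨e • x, by simp [hψx]⟩
    rw [h2, finrank_top, finrank_self] at h1
    have h3 : Submodule.span E {u} ≤ LinearMap.ker ψ := by
      rw [Submodule.span_singleton_le_iff_mem]
      exact hψu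
    have h4 : finrank E (Submodule.span E {u}) = 1 := finrank_span_singleton D.u_ne
    have h5 : Submodule.span E {u} = LinearMap.ker ψ :=
      Submodule.eq_of_le_of_finrank_eq h3 (by omega)
    have h6 : v ∈ Submodule.span E {u} := by rw [h5]; exact hv
    exact h6
  have hψp : ψ p = 0 := hψL p hpL
  obtain ⟨ψ₁, hψ₁, hψ₁y, hB⟩ := exists_B hX D.mem hyL'
  obtain ⟨B, hB0, hBf, hB1, hB2, hB3, hB4⟩ := hB p hpL'
  let A : V →ₗ[F] V := erk ψ p
  have hA0 : Has X A := has_erk hX hψp
  have hA : ∀ v, A v = ψ v • p := fun v => rfl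
  have hAL : ∀ v ∈ L, A v = 0 := by intro v hv; rw [hA, hψL v hv, zero_smul]
  have hAv : ∀ v, A v ∈ L := fun v => smul_mem_Ln _ hpL
  have hAL' : ∀ v ∈ L', ∃ c : F, A v = c • p := by
    intro v hv
    obtain ⟨c, hc⟩ := D.left x hx hxL v hv
    refine ⟨c, ?_⟩
    have h1 := hAL _ hc
    rw [map_sub, map_smul, sub_eq_zero] at h1
    rw [h1, hA, hψx, one_smul]
  have hBL : ∀ v ∈ L, ∃ c : F, B v = c • p := by
    intro v hv
    obtain ⟨c, hc⟩ := D.right y hy hyL' v hv
    refine ⟨c, ?_⟩
    have h1 := hB2 _ hc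
    rw [map_sub, map_smul, hB3, sub_eq_zero] at h1
    exact h1
  have hBp : B p = 0 := hB2 p hpL'
  have hBx : B x = 0 := hB2 x hx
  have hBω : B (ω • p) = p := by rw [← hω, hB3]
  -- `C = AB - BA` vanishes
  let C : V →ₗ[F] V := A ∘ₗ B - B ∘ₗ A
  have hC : ∀ v, C v = A (B v) - B (A v) := fun v => rfl
  have hC0 : Has X C := by
    refine hA0.comm' hB0 ?_ ?_ ?_ ?_
    · intro v; exact hAL _ (hAv v)
    · intro v; exact hB2 _ (hB1 v)
    · intro v
      obtain ⟨c, hc⟩ := hBL _ (hAv v)
      rw [hc, map_smul, hAL p hpL, smul_zero]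
    · intro v
      obtain ⟨c, hc⟩ := hAL' _ (hB1 v)
      rw [hc, map_smul, hBp, smul_zero]
  have hCzero : ∀ v, C v = 0 := by
    intro v
    by_contra hv
    apply hno
    refine hasTransvection_of hp0 ?_ hC0 ?_ hv
    · intro w
      obtain ⟨c, hc⟩ := hAL' _ (hB1 w)
      obtain ⟨c', hc'⟩ := hBL _ (hAv w)
      exact ⟨c - c', by rw [hC, hc, hc', sub_smul]⟩
    · rw [hC, hBp, map_zero, hAL p hpL, map_zero, sub_zero]
  -- `B (ω x) = x + α p`
  obtain ⟨α, hα⟩ : ∃ α : F, B (ω • x) = x + α • p := by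
    obtain ⟨β, hβ⟩ := D.left x hx hxL _ (hB1 (ω • x))
    obtain ⟨α, hα⟩ := hP _ ⟨hβ, L'.sub_mem (hB1 _) (L'.smul_mem β hx)⟩
    have h1 : B (ω • x) = β • x + α • p := by rw [← hα]; abel
    have h2 := hCzero (ω • x)
    rw [hC, h1, hA (ω • x), ψ.map_smul, hψx, smul_eq_mul, mul_one, hBω, map_add, map_smul, map_smul, hAL p hpL,
      smul_zero, add_zero, hA, hψx, one_smul, sub_eq_zero] at h2
    have h3 : β = 1 := by
      have h4 : (algebraMap F E β) • p = (1 : E) • p := by rw [algebraMap_smul, h2, one_smul]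
      have h5 := hpinj _ _ h4
      rw [← map_one (algebraMap F E)] at h5
      exact (algebraMap F E).injective h5
    rw [h3, one_smul] at h1
    exact ⟨α, h1⟩
  -- `ω² = t ω + n₀`
  obtain ⟨t, n₀, htn⟩ := hE (ω * ω)
  -- `δ = a + b ω` of norm one, `b ≠ 0`
  obtain ⟨δ, hδ, hδF⟩ : ∃ δ : E, Algebra.norm F δ = 1 ∧ δ ∉ Submodule.span F {(1 : E)} := by
    refine exists_norm_one_notMem (by omega) _ ?_
    intro h
    have h1 : finrank F (Submodule.span F {(1 : E)}) = 1 := finrank_span_singleton one_ne_zero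
    rw [h, finrank_top] at h1
    omega
  obtain ⟨b, a, hab⟩ := hE δ
  have hb : b ≠ 0 := by
    rintro rfl
    apply hδF
    rw [Submodule.mem_span_singleton]
    refine ⟨a, ?_⟩
    rw [hab, map_zero, zero_mul, zero_add, Algebra.smul_def, mul_one]
  have hδ0 : δ ≠ 0 := by
    rintro rfl
    rw [Algebra.norm_zero] at hδ
    exact zero_ne_one hδ
  obtain ⟨n, hn, hn1, hn2⟩ := exists_dil hX hψx hδ
  have hψn : ∀ v, ψ (n v) = δ * ψ v := by
    intro v
    rw [hn1, map_add, map_smul, map_smul, hψx]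
    simp only [smul_eq_mul]
    ring
  have hnL : ∀ v ∈ L, n v = v := by
    intro v hv
    rw [hn1, hψL v hv, zero_smul, add_zero]
  have hnL' : ∀ v ∈ L, (n⁻¹ : V ≃ₗ[F] V) v = v := by
    intro v hv
    rw [hn2, hψL v hv, zero_smul, add_zero]
  have hninv : ∀ e : E, (n⁻¹ : V ≃ₗ[F] V) ((δ * e) • x) = e • x := by
    intro e
    rw [hn2, map_smul, hψx, smul_smul, ← add_smul]
    congr 1
    simp only [smul_eq_mul]
    field_simp
    ring
  -- the main computation, for every `s ≠ 0`
  have main : ∀ s : F, s ≠ 0 → algebraMap F E t = 2 * ω + algebraMap F E s := by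
    intro s hs
    -- `1 + s B ∈ X`
    have hsB : Has X (s • B) := by
      obtain ⟨Bs, hBs, hBsf, _⟩ := hB (s • p) (L'.smul_mem s hpL')
      refine hBs.congr ?_
      intro v
      rw [hBsf, LinearMap.smul_apply, hBf, g.symm.map_smul s p, smul_comm, g.map_smul]
    obtain ⟨q, hq, hq'⟩ := hsB
    have hq1 : ∀ v, q v = v + s • B v := fun v => by rw [hq']; rfl
    have hqinv : ∀ v, (q⁻¹ : V ≃ₗ[F] V) v = v - s • B v := by
      intro v
      have := inv_apply_of hq' (fun w => by
        simp only [LinearMap.smul_apply, map_smul, hB2 _ (hB1 w), smul_zero]) v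
      rw [this]; rfl
    -- `k = q (n q n⁻¹)⁻¹`
    set k : V ≃ₗ[F] V := q * (n * q * n⁻¹)⁻¹ with hk
    have hkX : k ∈ X := X.mul_mem hq (X.inv_mem (X.mul_mem (X.mul_mem hn hq) (X.inv_mem hn)))
    have hkinv : k⁻¹ = n * q * n⁻¹ * q⁻¹ := by rw [hk]; group
    have hkinv' : ∀ v, (k⁻¹ : V ≃ₗ[F] V) v = n (q ((n⁻¹ : V ≃ₗ[F] V) ((q⁻¹ : V ≃ₗ[F] V) v))) := by
      intro v
      rw [hkinv]
      rfl
    have hkL : ∀ v ∈ L, (k⁻¹ : V ≃ₗ[F] V) v = v := by
      intro v hv
      obtain ⟨c, hc⟩ := hBL v hv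
      have h1 : v - s • c • p ∈ L := L.sub_mem hv (L.smul_mem s (L.smul_mem c hpL))
      rw [hkinv', hqinv, hc, hnL' _ h1, hq1, map_sub, map_smul, map_smul, hBp, smul_zero, smul_zero, sub_zero, hc,
        sub_add_cancel, hnL v hv]
    have hkL2 : ∀ v ∈ L, k v = v := by
      intro v hv
      have h1 := hkL v hv
      have h2 : k ((k⁻¹ : V ≃ₗ[F] V) v) = v := by
        change k (k.symm v) = v
        simp
      rw [h1] at h2
      exact h2
    -- the element `1 + T`
    set M := ψ ((k⁻¹ : V ≃ₗ[F] V) x) with hM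
    have hc1 := (has_erk hX (show ψ p = 0 from hψp)).conj hkX
    have hMp : ψ ((-M) • p) = 0 := by rw [map_smul, hψp, smul_zero]
    have hc2 := has_erk hX hMp
    have hT := hc1.add hc2 (by
      intro v
      have h1 : ψ v • ((-M) • p) ∈ L := smul_mem_Ln _ (smul_mem_Ln _ hpL)
      simp only [LinearMap.comp_apply, erk_apply, LinearEquiv.coe_coe]
      rw [hkL _ h1, hψL _ h1, zero_smul, map_zero])
    set T : V →ₗ[F] V := (k : V →ₗ[F] V) ∘ₗ (erk ψ p) ∘ₗ ((k⁻¹ : V ≃ₗ[F] V) : V →ₗ[F] V) + erk ψ ((-M) • p) with hTdef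
    have hTv : ∀ v, T v = (ψ ((k⁻¹ : V ≃ₗ[F] V) v) - M * ψ v) • p := by
      intro v
      have h1 : ψ ((k⁻¹ : V ≃ₗ[F] V) v) • p ∈ L := smul_mem_Ln _ hpL
      simp only [hTdef, LinearMap.add_apply, LinearMap.comp_apply, erk_apply, LinearEquiv.coe_coe]
      rw [hkL2 _ h1, sub_smul, smul_smul, sub_eq_add_neg, ← neg_smul]
      congr 2
      ring
    have hTL : ∀ v ∈ L, T v = 0 := by
      intro v hv
      rw [hTv, hkL v hv, hψL v hv, mul_zero, sub_zero, zero_smul]
    have hTx : T x = 0 := by rw [hTv, hψx, mul_one, hM, sub_self, zero_smul]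
    have hTvL : ∀ v, T v ∈ L := by
      intro v
      rw [hTv]
      exact smul_mem_Ln _ hpL
    have hTω : T (ω • x) = 0 := by
      by_contra hne
      apply hno
      refine hasTransvection_of hne ?_ hT (hTL _ (hTvL _)) (v := ω • x) hne
      intro v
      obtain ⟨c, c', hcc⟩ := hE (ψ v)
      refine ⟨c, ?_⟩
      have h1 : v - ψ v • x ∈ L := by
        apply hker
        simp [hψx]
      have h2 := hTL _ h1
      rw [map_sub, hcc, add_smul, mul_smul, algebraMap_smul, algebraMap_smul, map_add, T.map_smul, T.map_smul, hTx,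
        smul_zero, add_zero, sub_eq_zero] at h2
      exact h2
    have hTzero : ∀ v, ψ ((k⁻¹ : V ≃ₗ[F] V) v) = M * ψ v := by
      intro v
      have h0 : T v = 0 := by
        obtain ⟨c, c', hcc⟩ := hE (ψ v)
        have h1 : v - ψ v • x ∈ L := by
          apply hker
          simp [hψx]
        have h2 := hTL _ h1
        rw [map_sub, hcc, add_smul, mul_smul, algebraMap_smul, algebraMap_smul, map_add, T.map_smul, T.map_smul, hTx,
          smul_zero, add_zero, sub_eq_zero, hTω, smul_zero] at h2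
        exact h2
      rw [hTv] at h0
      have h1 := (smul_eq_zero.mp h0).resolve_right hp0
      exact sub_eq_zero.mp h1
    -- `δ U(e) = M U(δ e)`
    have hU : ∀ e : E, δ * ψ (q (e • x)) = M * ψ (q ((δ * e) • x)) := by
      intro e
      have h1 := hTzero (q ((δ * e) • x))
      rw [hkinv'] at h1
      have h2 : (q⁻¹ : V ≃ₗ[F] V) (q ((δ * e) • x)) = (δ * e) • x := by
        change q.symm (q _) = _
        simp
      rw [h2, hninv, hψn] at h1
      exact h1
    have hψq : ∀ e : E, ∀ c c' : F, e = algebraMap F E c * ω + algebraMap F E c' →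
        ψ (q (e • x)) = algebraMap F E c * (ω + algebraMap F E s) + algebraMap F E c' := by
      intro e c c' he
      have h1 : B (e • x) = c • (x + α • p) := by
        rw [he, add_smul, mul_smul, algebraMap_smul, algebraMap_smul, map_add, B.map_smul, B.map_smul, hα, hBx,
          smul_zero, add_zero]
      rw [hq1, h1, map_add, ψ.map_smul, hψx, ← algebraMap_smul E s, ← algebraMap_smul E c, ← algebraMap_smul E α,
        map_smul, map_smul, map_add, map_smul, hψx, hψp, smul_zero, add_zero, he]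
      simp only [smul_eq_mul]
      ring
    have e1 := hU 1
    have e2 := hU ω
    rw [mul_one] at e1
    rw [hψq 1 0 1 (by simp), hψq δ b a hab] at e1
    rw [hψq ω 1 0 (by simp), hψq (δ * ω) (b * t + a) (b * n₀) (by
      rw [hab, add_mul, mul_assoc, htn, map_add, map_mul, map_mul]; ring)] at e2
    simp only [map_zero, map_one, zero_mul, one_mul, zero_add, add_zero, map_add, map_mul] at e1 e2
    -- e1 : δ = M (b (ω + s) + a), e2 : δ (ω + s) = M ((b t + a)(ω + s) + b n₀)
    have hMne : M ≠ 0 := by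
      intro h0
      rw [h0, zero_mul, mul_one] at e1
      exact hδ0 e1
    have hbE : algebraMap F E b ≠ 0 := by
      rw [Ne, map_eq_zero]
      exact hb
    have hsE : algebraMap F E s ≠ 0 := by
      rw [Ne, map_eq_zero]
      exact hs
    have e3 : M * (algebraMap F E b * ((ω + algebraMap F E s) * (ω + algebraMap F E s) -
        algebraMap F E t * (ω + algebraMap F E s) - algebraMap F E n₀)) = 0 := by
      linear_combination e2 - (ω + algebraMap F E s) * e1
    have e4 := (mul_eq_zero.mp ((mul_eq_zero.mp e3).resolve_left hMne)).resolve_left hbE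
    have e5 : algebraMap F E s * (2 * ω + algebraMap F E s - algebraMap F E t) = 0 := by
      linear_combination e4 - htn
    have e6 := (mul_eq_zero.mp e5).resolve_left hsE
    linear_combination -e6
  -- hence `F` has two elements
  have hF : ∀ s : F, s = 0 ∨ s = 1 := by
    intro s
    by_cases hs : s = 0
    · exact Or.inl hs
    · right
      have h1 := main s hs
      have h2 := main 1 one_ne_zero
      have h3 : algebraMap F E s = algebraMap F E 1 := by linear_combination h2 - h1
      exact (algebraMap F E).injective h3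
  have h20 : (1 : F) + 1 = 0 := by
    rcases hF (1 + 1) with h | h
    · exact h
    · exfalso
      have h' : (1 : F) + 1 = 1 + 0 := by rw [h, add_zero]
      exact one_ne_zero (add_left_cancel h')
  have h2E : (2 : E) = 0 := by
    have : (2 : E) = algebraMap F E (1 + 1) := by rw [map_add, map_one]; norm_num
    rw [this, h20, map_zero]
  have ht : algebraMap F E t = 1 := by
    rw [main 1 one_ne_zero, h2E, map_one]
    ring
  have hω2 : ω * ω = ω + 1 := by
    rcases hF n₀ with h | h
    · exfalso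
      rw [h, map_zero, ht, one_mul, add_zero] at htn
      have h1 : ω * (ω - 1) = 0 := by linear_combination htn
      rcases mul_eq_zero.mp h1 with h2 | h2
      · exact hωF 0 (by rw [map_zero, h2])
      · exact hωF 1 (by rw [map_one]; exact (sub_eq_zero.mp h2).symm)
    · rw [htn, h, map_one, ht, one_mul]
  -- the functional `χ`
  have hpx : p ∉ Submodule.span E {x} := by
    intro h
    rw [Submodule.mem_span_singleton] at h
    obtain ⟨e, he⟩ := h
    have h1 : ψ (e • x) = 0 := by rw [he, hψp]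
    rw [map_smul, hψx, smul_eq_mul, mul_one] at h1
    rw [h1, zero_smul] at he
    exact hp0 he.symm
  obtain ⟨χ, hχx, hχp⟩ := exists_functional hpx
  have hdec : ∀ v, v = χ v • p + ψ v • x := by
    intro v
    have h1 : v - ψ v • x ∈ L := by
      apply hker
      simp [hψx]
    obtain ⟨κ, hκ⟩ := hLp _ h1
    have h2 : χ (v - ψ v • x) = χ (κ • p) := by rw [hκ]
    rw [map_sub, map_smul, map_smul, hχx, hχp, smul_zero, sub_zero, smul_eq_mul, mul_one] at h2
    rw [h2, ← hκ]
    abel
  obtain ⟨B', hB'0, hB'f, hB'1, hB'2, hB'3, _⟩ := hB x hx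
  apply hno
  refine find_of_card_two hX hF hω2 hψp hψx hχp hχx hdec hE hB0 hB'0 hBp hBx hBω hα (hB'2 p hpL') (hB'2 x hx)
    (by rw [← hω, hB'3]) ?_
  intro hα0
  rw [hα0, zero_smul, add_zero] at hα
  -- `g⁻¹ x = λ g⁻¹ p`
  obtain ⟨p₀, hp₀, hgp⟩ := hpL'
  obtain ⟨x₀, hx₀, hgx⟩ := hx
  obtain ⟨s, hs⟩ := mem_Ln.mp hp₀
  obtain ⟨s', hs'⟩ := mem_Ln.mp hx₀
  have hp₀0 : p₀ ≠ 0 := by
    rintro rfl
    rw [map_zero] at hgp
    exact hp0 hgp.symm
  have hs0 : s ≠ 0 := by
    rintro rfl
    rw [zero_smul] at hs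
    exact hp₀0 hs.symm
  set lam := s' * s⁻¹ with hlam
  have hxl : x₀ = lam • p₀ := by rw [← hs, smul_smul, hlam, inv_mul_cancel_right₀ hs0, hs']
  have hgp' : g.symm p = p₀ := by rw [← hgp]; simp
  have hgx' : g.symm x = x₀ := by rw [← hgx]; simp
  have hlam2 : lam * lam = lam + 1 := by
    obtain ⟨c, c', hcc⟩ := hE lam
    have hc : c = 1 := by
      rcases hF c with h | h
      · exfalso
        apply hxL
        have h1 : x = c' • p := by
          rw [← hgx, ← hgp, ← map_smul]
          congr 1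
          rw [hxl, hcc, h, map_zero, zero_mul, zero_add, algebraMap_smul]
        rw [h1]
        exact L.smul_mem _ hpL
      · exact h
    have hc' : algebraMap F E c' * algebraMap F E c' = algebraMap F E c' := by
      rcases hF c' with h | h
      · rw [h, map_zero, mul_zero]
      · rw [h, map_one, mul_one]
    rw [hcc, hc, map_one]
    linear_combination hω2 + hc' + (ω * algebraMap F E c') * h2E
  -- `μ = ψ₁ (g⁻¹ (ω x)) = λ`
  have hmu : ψ₁ (g.symm (ω • x)) = lam := by
    have h1 := hBf (ω • x)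
    rw [hα, hgp'] at h1
    have h2 : x₀ = ψ₁ (g.symm (ω • x)) • p₀ := by
      have h3 := congrArg g.symm h1
      rw [LinearEquiv.symm_apply_apply, hgx'] at h3
      exact h3
    rw [hxl] at h2
    by_contra hne
    have h3 : (lam - ψ₁ (g.symm (ω • x))) • p₀ = 0 := by rw [sub_smul, ← h2, sub_self]
    rcases smul_eq_zero.mp h3 with h4 | h4
    · exact hne (sub_eq_zero.mp h4).symm
    · exact hp₀0 h4
  rw [hB'f, hmu, hgx', hxl, smul_smul, hlam2, add_smul, one_smul, map_add, ← hxl]
  have h5 : g x₀ = x := hgx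
  have h6 : g p₀ = p := hgp
  rw [h5, h6]

end Quad

end Cfsg.Agent.H935
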